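import Mathlib
import Cfsg.Agent.SympAmalgam.Main
import Cfsg.Agent.Classical.Symp.Involutions

/-!
Embeddings of smaller symplectic groups along injections of the coordinate pairs.
-/

set_option autoImplicit false

namespace CfsgLib.SpPres77

open Matrix CfsgLib.Classical.Symp CfsgLib.SympAmalgam

variable {F : Type*} [Field F] {k l m : ℕ}

local notation "Mat[" m "]" => Matrix (Fin m ⊕ Fin m) (Fin m ⊕ Fin m) F
local notation "Sp[" m "]" => Matrix.symplecticGroup (Fin m) F
local notation "Vec[" m "]" => Fin m ⊕ Fin m → F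

/-- The induced injection of coordinates. -/
def coordMap (ι : Fin k ↪ Fin m) : Fin k ⊕ Fin k ↪ Fin m ⊕ Fin m :=
  ⟨Sum.map ι ι, ι.injective.sumMap ι.injective⟩

theorem coordMap_inl (ι : Fin k ↪ Fin m) (a : Fin k) : coordMap ι (Sum.inl a) = Sum.inl (ι a) := rfl

theorem coordMap_inr (ι : Fin k ↪ Fin m) (a : Fin k) : coordMap ι (Sum.inr a) = Sum.inr (ι a) := rfl

theorem coord_cases (ι : Fin k ↪ Fin m) (i : Fin m ⊕ Fin m) :
    (∃ a, coordMap ι a = i) ∨ ¬ ∃ a, coordMap ι a = i := em _

/-- The pushforward of vectors. -/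
noncomputable def push (ι : Fin k ↪ Fin m) : Vec[k] →ₗ[F] Vec[m] where
  toFun y := Function.extend (coordMap ι) y 0
  map_add' y z := by
    funext i
    rcases coord_cases ι i with ⟨a, rfl⟩ | h
    · simp [(coordMap ι).injective.extend_apply]
    · simp [Function.extend_apply' _ _ _ h]
  map_smul' c y := by
    funext i
    rcases coord_cases ι i with ⟨a, rfl⟩ | h
    · simp [(coordMap ι).injective.extend_apply]
    · simp [Function.extend_apply' _ _ _ h]

theorem push_apply (ι : Fin k ↪ Fin m) (y : Vec[k]) (a : Fin k ⊕ Fin k) :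
    push ι y (coordMap ι a) = y a := (coordMap ι).injective.extend_apply _ _ _

theorem push_off (ι : Fin k ↪ Fin m) (y : Vec[k]) {i : Fin m ⊕ Fin m}
    (h : ¬ ∃ a, coordMap ι a = i) : push ι y i = 0 := Function.extend_apply' _ _ _ h

theorem push_comp (ι : Fin k ↪ Fin m) (y : Vec[k]) : push ι y ∘ coordMap ι = y :=
  funext (push_apply ι y)

theorem push_stdF (ι : Fin k ↪ Fin m) (a : Fin k) : push ι (stdF (F := F) a) = stdF (ι a) := by
  funext i
  rcases coord_cases ι i with ⟨b, rfl⟩ | h
  · rw [push_apply]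
    rcases b with b | b <;> simp [coordMap, stdF, Pi.single_apply]
  · rw [push_off ι _ h, stdF, Pi.single_eq_of_ne]
    exact fun e => h ⟨Sum.inl a, e.symm⟩

theorem push_stdE (ι : Fin k ↪ Fin m) (a : Fin k) : push ι (stdE (F := F) a) = stdE (ι a) := by
  funext i
  rcases coord_cases ι i with ⟨b, rfl⟩ | h
  · rw [push_apply]
    rcases b with b | b <;> simp [coordMap, stdE, Pi.single_apply]
  · rw [push_off ι _ h, stdE, Pi.single_eq_of_ne]
    exact fun e => h ⟨Sum.inr a, e.symm⟩

/-- Splitting the form along the range of `ι`. -/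
theorem form_split (ι : Fin k ↪ Fin m) (x y : Vec[m]) :
    Cfsg.sympForm m F x y = Cfsg.sympForm k F (x ∘ coordMap ι) (y ∘ coordMap ι) +
      ∑ i ∈ (Finset.univ.map ι)ᶜ,
        (x (Sum.inr i) * y (Sum.inl i) - x (Sum.inl i) * y (Sum.inr i)) := by
  rw [form_apply, form_apply, ← Finset.sum_add_sum_compl (Finset.univ.map ι), Finset.sum_map]
  rfl

theorem form_push (ι : Fin k ↪ Fin m) (y z : Vec[k]) :
    Cfsg.sympForm m F (push ι y) (push ι z) = Cfsg.sympForm k F y z := by
  rw [form_split ι, push_comp, push_comp, Finset.sum_eq_zero, add_zero]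
  intro i hi
  rw [Finset.mem_compl, Finset.mem_map] at hi
  have h1 : ¬ ∃ a, coordMap ι a = Sum.inl i := by
    rintro ⟨a | a, e⟩
    · exact hi ⟨a, Finset.mem_univ a, Sum.inl_injective e⟩
    · exact Sum.inr_ne_inl e
  have h2 : ¬ ∃ a, coordMap ι a = Sum.inr i := by
    rintro ⟨a | a, e⟩
    · exact Sum.inl_ne_inr e
    · exact hi ⟨a, Finset.mem_univ a, Sum.inr_injective e⟩
  rw [push_off ι y h1, push_off ι y h2]
  ring

/-- The linear map of the embedded element. -/
noncomputable def embLin (ι : Fin k ↪ Fin m) (g : Sp[k]) : Vec[m] →ₗ[F] Vec[m] where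
  toFun x := Function.extend (coordMap ι) ((g : Mat[k]) *ᵥ (x ∘ coordMap ι)) x
  map_add' x y := by
    funext i
    rcases coord_cases ι i with ⟨a, rfl⟩ | h
    · simp only [Pi.add_apply, (coordMap ι).injective.extend_apply]
      rw [show ((x + y) ∘ coordMap ι) = x ∘ coordMap ι + y ∘ coordMap ι from rfl, mulVec_add]
      rfl
    · simp [Function.extend_apply' _ _ _ h]
  map_smul' c x := by
    funext i
    rcases coord_cases ι i with ⟨a, rfl⟩ | h
    · simp only [RingHom.id_apply, Pi.smul_apply, (coordMap ι).injective.extend_apply]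
      rw [show ((c • x) ∘ coordMap ι) = c • (x ∘ coordMap ι) from rfl, mulVec_smul]
      rfl
    · simp [Function.extend_apply' _ _ _ h]

theorem toMatrix_embLin_mulVec (ι : Fin k ↪ Fin m) (g : Sp[k]) (x : Vec[m]) :
    LinearMap.toMatrix' (embLin ι g) *ᵥ x =
      Function.extend (coordMap ι) ((g : Mat[k]) *ᵥ (x ∘ coordMap ι)) x :=
  LinearMap.toMatrix'_mulVec _ _

theorem embLin_mem (ι : Fin k ↪ Fin m) (g : Sp[k]) :
    LinearMap.toMatrix' (embLin ι g) ∈ Matrix.symplecticGroup (Fin m) F := by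
  rw [mem_symplecticGroup_iff_form]
  intro x y
  rw [toMatrix_embLin_mulVec, toMatrix_embLin_mulVec, form_split ι, form_split ι x y,
    Function.extend_comp (coordMap ι).injective, Function.extend_comp (coordMap ι).injective,
    form_mulVec]
  congr 1
  refine Finset.sum_congr rfl fun i hi => ?_
  rw [Finset.mem_compl, Finset.mem_map] at hi
  have h1 : ¬ ∃ a, coordMap ι a = Sum.inl i := by
    rintro ⟨a | a, e⟩
    · exact hi ⟨a, Finset.mem_univ a, Sum.inl_injective e⟩
    · exact Sum.inr_ne_inl e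
  have h2 : ¬ ∃ a, coordMap ι a = Sum.inr i := by
    rintro ⟨a | a, e⟩
    · exact Sum.inl_ne_inr e
    · exact hi ⟨a, Finset.mem_univ a, Sum.inr_injective e⟩
  rw [Function.extend_apply' _ _ _ h1, Function.extend_apply' _ _ _ h1,
    Function.extend_apply' _ _ _ h2, Function.extend_apply' _ _ _ h2]

/-- The embedding of the smaller symplectic group. -/
noncomputable def emb (ι : Fin k ↪ Fin m) : Sp[k] →* Sp[m] where
  toFun g := ⟨LinearMap.toMatrix' (embLin ι g), embLin_mem ι g⟩
  map_one' := symp_ext fun x => by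
    rw [toMatrix_embLin_mulVec, Submonoid.coe_one, Submonoid.coe_one, one_mulVec, one_mulVec]
    funext i
    rcases coord_cases ι i with ⟨a, rfl⟩ | h
    · exact (coordMap ι).injective.extend_apply _ _ _
    · exact Function.extend_apply' _ _ _ h
  map_mul' g h := symp_ext fun x => by
    rw [mul_mulVec, toMatrix_embLin_mulVec, toMatrix_embLin_mulVec, toMatrix_embLin_mulVec,
      Function.extend_comp (coordMap ι).injective, mul_mulVec]
    funext i
    rcases coord_cases ι i with ⟨a, rfl⟩ | h'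
    · rw [(coordMap ι).injective.extend_apply, (coordMap ι).injective.extend_apply]
    · rw [Function.extend_apply' _ _ _ h', Function.extend_apply' _ _ _ h',
        Function.extend_apply' _ _ _ h']

theorem emb_mulVec (ι : Fin k ↪ Fin m) (g : Sp[k]) (x : Vec[m]) :
    ((emb ι g : Sp[m]) : Mat[m]) *ᵥ x =
      Function.extend (coordMap ι) ((g : Mat[k]) *ᵥ (x ∘ coordMap ι)) x :=
  toMatrix_embLin_mulVec ι g x

theorem emb_push (ι : Fin k ↪ Fin m) (g : Sp[k]) (y : Vec[k]) :
    ((emb ι g : Sp[m]) : Mat[m]) *ᵥ push ι y = push ι ((g : Mat[k]) *ᵥ y) := by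
  rw [emb_mulVec, push_comp]
  funext i
  rcases coord_cases ι i with ⟨a, rfl⟩ | h
  · rw [(coordMap ι).injective.extend_apply, push_apply]
  · rw [Function.extend_apply' _ _ _ h, push_off ι _ h, push_off ι _ h]

theorem emb_stdF (ι : Fin k ↪ Fin m) (g : Sp[k]) (a : Fin k) :
    ((emb ι g : Sp[m]) : Mat[m]) *ᵥ stdF (ι a) = push ι ((g : Mat[k]) *ᵥ stdF a) := by
  rw [← push_stdF, emb_push]

theorem emb_stdE (ι : Fin k ↪ Fin m) (g : Sp[k]) (a : Fin k) :
    ((emb ι g : Sp[m]) : Mat[m]) *ᵥ stdE (ι a) = push ι ((g : Mat[k]) *ᵥ stdE a) := by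
  rw [← push_stdE, emb_push]

theorem emb_fix (ι : Fin k ↪ Fin m) (g : Sp[k]) {i : Fin m} (h : ∀ a, ι a ≠ i) :
    ((emb ι g : Sp[m]) : Mat[m]) *ᵥ stdF i = stdF i ∧
      ((emb ι g : Sp[m]) : Mat[m]) *ᵥ stdE i = stdE i := by
  have h1 : ∀ x : Vec[m], x ∘ coordMap ι = 0 →
      ((emb ι g : Sp[m]) : Mat[m]) *ᵥ x = x := by
    intro x hx
    rw [emb_mulVec, hx, mulVec_zero]
    funext j
    rcases coord_cases ι j with ⟨a, rfl⟩ | hj
    · rw [(coordMap ι).injective.extend_apply]; exact (congrFun hx a).symm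
    · exact Function.extend_apply' _ _ _ hj
  constructor <;> refine h1 _ (funext fun b => ?_) <;> rcases b with b | b <;>
    simp [coordMap, stdF, stdE, h b]

theorem emb_injective (ι : Fin k ↪ Fin m) : Function.Injective (emb (F := F) ι) := by
  intro g h e
  refine symp_ext fun y => ?_
  have := congrArg (fun t : Sp[m] => ((t : Mat[m]) *ᵥ push ι y) ∘ coordMap ι) e
  simpa [emb_push, push_comp] using this

theorem emb_trans (ι : Fin k ↪ Fin l) (κ : Fin l ↪ Fin m) (g : Sp[k]) :
    emb (ι.trans κ) g = emb κ (emb ι g) := by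
  refine symp_ext fun x => ?_
  have hc : ∀ a, coordMap (ι.trans κ) a = coordMap κ (coordMap ι a) := fun a => by
    cases a <;> rfl
  have hcomp : x ∘ coordMap (ι.trans κ) = (x ∘ coordMap κ) ∘ coordMap ι :=
    funext fun a => by simp [hc]
  rw [emb_mulVec, emb_mulVec, emb_mulVec, hcomp]
  funext i
  rcases coord_cases κ i with ⟨b, rfl⟩ | h
  · rw [(coordMap κ).injective.extend_apply]
    rcases coord_cases ι b with ⟨a, rfl⟩ | h
    · rw [← hc, (coordMap (ι.trans κ)).injective.extend_apply, (coordMap ι).injective.extend_apply]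
    · rw [Function.extend_apply' _ _ _ h, Function.extend_apply']
      · rfl
      · rintro ⟨a, e⟩
        rw [hc] at e
        exact h ⟨a, (coordMap κ).injective e⟩
  · rw [Function.extend_apply' _ _ _ h, Function.extend_apply']
    rintro ⟨a, e⟩
    exact h ⟨coordMap ι a, (hc a).symm.trans e⟩

theorem emb_refl (g : Sp[k]) : emb (Function.Embedding.refl (Fin k)) g = g := by
  refine symp_ext fun x => ?_
  have hc : ∀ a, coordMap (Function.Embedding.refl (Fin k)) a = a := fun a => by cases a <;> rfl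
  have hcomp : x ∘ coordMap (Function.Embedding.refl (Fin k)) = x := funext fun a => by simp [hc]
  rw [emb_mulVec, hcomp]
  funext i
  conv_lhs => rw [← hc i, (coordMap (Function.Embedding.refl (Fin k))).injective.extend_apply]

/-- Elements fixing the other pairs come from the smaller group. -/
theorem mem_range_emb (ι : Fin k ↪ Fin m) {g : Sp[m]} :
    g ∈ (emb (F := F) ι).range ↔ ∀ i, (∀ a, ι a ≠ i) →
      (g : Mat[m]) *ᵥ stdF i = stdF i ∧ (g : Mat[m]) *ᵥ stdE i = stdE i := by
  refine ⟨fun ⟨h, e⟩ i hi => e ▸ emb_fix ι h hi, fun h => ?_⟩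
  have hoff : ∀ (x : Vec[m]) (j : Fin m ⊕ Fin m), (¬ ∃ a, coordMap ι a = j) →
      ((g : Mat[m]) *ᵥ x) j = x j := by
    intro x j hj
    rcases j with i | i
    · obtain ⟨-, he⟩ := h i fun a e => hj ⟨Sum.inl a, by rw [coordMap_inl, e]⟩
      have := form_mulVec g x (stdE i)
      rwa [he, form_stdE_right, form_stdE_right, neg_inj] at this
    · obtain ⟨hf, -⟩ := h i fun a e => hj ⟨Sum.inr a, by rw [coordMap_inr, e]⟩
      have := form_mulVec g x (stdF i)
      rwa [hf, form_stdF_right, form_stdF_right] at this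
  let L : Vec[k] →ₗ[F] Vec[k] :=
    (LinearMap.funLeft F F (coordMap ι)).comp ((Matrix.toLin' (g : Mat[m])).comp (push ι))
  have hL : ∀ y, LinearMap.toMatrix' L *ᵥ y = ((g : Mat[m]) *ᵥ push ι y) ∘ coordMap ι :=
    fun y => LinearMap.toMatrix'_mulVec _ _
  have hpush : ∀ y, push ι (LinearMap.toMatrix' L *ᵥ y) = (g : Mat[m]) *ᵥ push ι y := by
    intro y
    funext j
    rcases coord_cases ι j with ⟨a, rfl⟩ | hj
    · rw [push_apply, hL]; rfl
    · rw [push_off ι _ hj, hoff _ j hj, push_off ι _ hj]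
  have hmem : LinearMap.toMatrix' L ∈ Matrix.symplecticGroup (Fin k) F := by
    rw [mem_symplecticGroup_iff_form]
    intro y z
    rw [← form_push ι, hpush, hpush, form_mulVec, form_push]
  refine ⟨⟨_, hmem⟩, symp_ext_std (fun i => ?_) fun i => ?_⟩ <;>
    by_cases hi : ∃ a, ι a = i
  · obtain ⟨a, rfl⟩ := hi
    rw [emb_stdE]; exact (hpush _).trans (by rw [push_stdE])
  · push Not at hi
    rw [(emb_fix ι _ hi).2, (h i hi).2]
  · obtain ⟨a, rfl⟩ := hi
    rw [emb_stdF]; exact (hpush _).trans (by rw [push_stdF])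
  · push Not at hi
    rw [(emb_fix ι _ hi).1, (h i hi).1]

/-- Disjoint embeddings commute. -/
theorem emb_commute (ι : Fin k ↪ Fin m) (κ : Fin l ↪ Fin m) (h : ∀ a b, ι a ≠ κ b)
    (g : Sp[k]) (g' : Sp[l]) : Commute (emb ι g) (emb κ g') := by
  have hne : ∀ a b, coordMap ι a ≠ coordMap κ b := by
    rintro (a | a) (b | b) e
    · exact h a b (Sum.inl_injective e)
    · exact Sum.inl_ne_inr e
    · exact Sum.inr_ne_inl e
    · exact h a b (Sum.inr_injective e)
  have h1 : ∀ x : Vec[m], (((emb κ g' : Sp[m]) : Mat[m]) *ᵥ x) ∘ coordMap ι = x ∘ coordMap ι :=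
    fun x => funext fun a => by
      simp only [Function.comp_apply, emb_mulVec]
      exact Function.extend_apply' _ _ _ fun ⟨b, e⟩ => hne a b e.symm
  have h2 : ∀ x : Vec[m], (((emb ι g : Sp[m]) : Mat[m]) *ᵥ x) ∘ coordMap κ = x ∘ coordMap κ :=
    fun x => funext fun b => by
      simp only [Function.comp_apply, emb_mulVec]
      exact Function.extend_apply' _ _ _ fun ⟨a, e⟩ => hne a b e
  refine symp_ext fun x => ?_
  rw [mul_mulVec, mul_mulVec, emb_mulVec ι, emb_mulVec κ g' (((emb ι g : Sp[m]) : Mat[m]) *ᵥ x),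
    h1, h2]
  funext i
  rcases coord_cases ι i with ⟨a, rfl⟩ | hi
  · rw [(coordMap ι).injective.extend_apply, Function.extend_apply' _ _ _ fun ⟨b, e⟩ => hne a b e.symm,
      emb_mulVec, (coordMap ι).injective.extend_apply]
  · rw [Function.extend_apply' _ _ _ hi]
    rcases coord_cases κ i with ⟨b, rfl⟩ | hj
    · rw [(coordMap κ).injective.extend_apply, emb_mulVec, (coordMap κ).injective.extend_apply]
    · rw [Function.extend_apply' _ _ _ hj, emb_mulVec, Function.extend_apply' _ _ _ hj,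
        emb_mulVec, Function.extend_apply' _ _ _ hi]

/-- The permutation matrices as a homomorphism. -/
noncomputable def permHom (m : ℕ) (F : Type*) [Field F] :
    Equiv.Perm (Fin m) →* Matrix.symplecticGroup (Fin m) F where
  toFun := permSp
  map_one' := symp_ext_std (fun i => by simp [permSp_stdE]) fun i => by simp [permSp_stdF]
  map_mul' σ τ := symp_ext_std
    (fun i => by rw [mul_mulVec, permSp_stdE, permSp_stdE, permSp_stdE, Equiv.Perm.mul_apply])
    fun i => by rw [mul_mulVec, permSp_stdF, permSp_stdF, permSp_stdF, Equiv.Perm.mul_apply]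

theorem permHom_stdE (σ : Equiv.Perm (Fin m)) (i : Fin m) :
    ((permHom m F σ : Sp[m]) : Mat[m]) *ᵥ stdE i = stdE (σ i) := permSp_stdE σ i

theorem permHom_stdF (σ : Equiv.Perm (Fin m)) (i : Fin m) :
    ((permHom m F σ : Sp[m]) : Mat[m]) *ᵥ stdF i = stdF (σ i) := permSp_stdF σ i

theorem permHom_push (σ : Equiv.Perm (Fin m)) (ι : Fin k ↪ Fin m) (y : Vec[k]) :
    ((permHom m F σ : Sp[m]) : Mat[m]) *ᵥ push ι y = push (ι.trans σ.toEmbedding) y := by
  change ((permSp (F := F) σ : Sp[m]) : Mat[m]) *ᵥ _ = _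
  rw [permSp_mulVec]
  have hc : ∀ a, coordMap (ι.trans σ.toEmbedding) a = Sum.map σ σ (coordMap ι a) := fun a => by
    cases a <;> rfl
  funext j
  rcases coord_cases (ι.trans σ.toEmbedding) j with ⟨a, rfl⟩ | h
  · rw [push_apply, hc, show Sum.map σ.symm σ.symm (Sum.map σ σ (coordMap ι a)) = coordMap ι a by
      cases coordMap ι a <;> simp, push_apply]
  · rw [push_off _ _ h, push_off]
    rintro ⟨a, e⟩
    refine h ⟨a, ?_⟩
    rw [hc, e]
    cases j <;> simp

/-- Permutations conjugate embeddings. -/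
theorem permHom_conj (σ : Equiv.Perm (Fin m)) (ι : Fin k ↪ Fin m) (g : Sp[k]) :
    permHom m F σ * emb ι g * (permHom m F σ)⁻¹ = emb (ι.trans σ.toEmbedding) g := by
  rw [mul_inv_eq_iff_eq_mul]
  refine symp_ext_std (fun i => ?_) fun i => ?_ <;> rw [mul_mulVec, mul_mulVec] <;>
    by_cases hi : ∃ a, ι a = i
  · obtain ⟨a, rfl⟩ := hi
    rw [emb_stdE, permHom_push, permHom_stdE]
    exact (emb_stdE (ι.trans σ.toEmbedding) g a).symm
  · push Not at hi
    rw [(emb_fix ι g hi).2, permHom_stdE]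
    exact ((emb_fix (ι.trans σ.toEmbedding) g fun a e => hi a (σ.injective e)).2).symm
  · obtain ⟨a, rfl⟩ := hi
    rw [emb_stdF, permHom_push, permHom_stdF]
    exact (emb_stdF (ι.trans σ.toEmbedding) g a).symm
  · push Not at hi
    rw [(emb_fix ι g hi).1, permHom_stdF]
    exact ((emb_fix (ι.trans σ.toEmbedding) g fun a e => hi a (σ.injective e)).1).symm

theorem push_neg (ι : Fin k ↪ Fin m) (y : Vec[k]) : push ι (-y) = -push ι y := map_neg _ _

theorem emb_eT (ι : Fin k ↪ Fin m) {e v : Vec[k]} (h : Cfsg.sympForm k F e v = 0) (z : F) :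
    emb ι (eT e v z) = eT (push ι e) (push ι v) z := by
  have h' : Cfsg.sympForm m F (push ι e) (push ι v) = 0 := by rw [form_push, h]
  refine symp_ext_std (fun i => ?_) fun i => ?_ <;> by_cases hi : ∃ a, ι a = i
  · obtain ⟨a, rfl⟩ := hi
    rw [emb_stdE, eT_mulVec h, eT_mulVec h', ← push_stdE, form_push, form_push, map_add, map_add,
      map_add, map_smul, map_smul, map_smul]
  · push Not at hi
    have o : ∀ y : Vec[k], Cfsg.sympForm m F (stdE i) (push ι y) = 0 := fun y => by
      rw [form_eq_zero_comm, form_stdE_right, neg_eq_zero]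
      exact push_off ι y fun ⟨b, eb⟩ => by
        rcases b with b | b
        · exact hi b (Sum.inl_injective eb)
        · exact Sum.inr_ne_inl eb
    rw [(emb_fix ι _ hi).2, eT_fix h' z (o e) (o v)]
  · obtain ⟨a, rfl⟩ := hi
    rw [emb_stdF, eT_mulVec h, eT_mulVec h', ← push_stdF, form_push, form_push, map_add, map_add,
      map_add, map_smul, map_smul, map_smul]
  · push Not at hi
    have o : ∀ y : Vec[k], Cfsg.sympForm m F (stdF i) (push ι y) = 0 := fun y => by
      rw [form_eq_zero_comm, form_stdF_right]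
      exact push_off ι y fun ⟨b, eb⟩ => by
        rcases b with b | b
        · exact Sum.inl_ne_inr eb
        · exact hi b (Sum.inr_injective eb)
    rw [(emb_fix ι _ hi).1, eT_fix h' z (o e) (o v)]

/-- A subgroup containing the planes and the short root elements is everything. -/
theorem eq_top_of_planes (A : Subgroup Sp[m]) (hP : ∀ j, plane j ≤ A)
    (hE : ∀ (i : Fin m) (hi : i.val + 1 < m), eT (stdF i) (stdF ⟨i.val + 1, hi⟩) 0 ∈ A) : A = ⊤ := by
  have key : ∀ (d j : ℕ), m ≤ j + d → fixK (m := m) (F := F) j ≤ A := by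
    intro d
    induction d with
    | zero => exact fun j hj g hg => (fixK_top (by omega) hg) ▸ one_mem A
    | succ d ih =>
      intro j hj
      by_cases hjm : m ≤ j
      · exact fun g hg => (fixK_top hjm hg) ▸ one_mem A
      exact fixK_le (k := ⟨j, by omega⟩) A (hP _) (ih (j + 1) (by omega)) fun hj1 => hE _ hj1
  exact eq_top_iff.2 fun g _ => key m 0 (by omega) (mem_fixK.2 fun j hj => absurd hj (by omega))

/-- The pair of two distinct points. -/
def pairE {α : Type*} (a b : α) (h : a ≠ b) : Fin 2 ↪ α :=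
  ⟨![a, b], fun i j e => by fin_cases i <;> fin_cases j <;> first | rfl | exact absurd e h |
    exact absurd e h.symm⟩

theorem pairE_zero {α : Type*} (a b : α) (h : a ≠ b) : pairE a b h 0 = a := rfl

theorem pairE_one {α : Type*} (a b : α) (h : a ≠ b) : pairE a b h 1 = b := rfl

/-- The single point. -/
def oneE {α : Type*} (a : α) : Fin 1 ↪ α := ⟨fun _ => a, fun i j _ => Subsingleton.elim i j⟩

theorem oneE_trans {α β : Type*} (a : α) (f : α ↪ β) : (oneE a).trans f = oneE (f a) := rfl

theorem range_oneE (j : Fin m) : (emb (F := F) (oneE j)).range = plane j := by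
  ext g
  rw [mem_range_emb, mem_plane]
  exact ⟨fun h i hi => h i fun _ => Ne.symm hi, fun h i hi => h i (Ne.symm (hi 0))⟩

theorem plane_le_range (ι : Fin k ↪ Fin m) (a : Fin k) : plane (ι a) ≤ (emb (F := F) ι).range := by
  rw [← range_oneE]
  rintro _ ⟨h, rfl⟩
  exact ⟨emb (oneE a) h, by rw [← emb_trans, oneE_trans]⟩

theorem mGrp_le_range (ι : Fin 2 ↪ Fin m) {i : Fin m} (h0 : (ι 0).val = i.val)
    (h1 : (ι 1).val = i.val + 1) : mGrp i ≤ (emb (F := F) ι).range := by
  intro g hg
  rw [mem_range_emb]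
  intro j hj
  refine ⟨(mem_mGrp.1 hg).1 j, (mem_mGrp.1 hg).2 j (fun e => hj 0 (Fin.ext (h0.trans e.symm)))
    fun e => hj 1 (Fin.ext (h1.trans e.symm))⟩

theorem mGrp_emb (ι : Fin 2 ↪ Fin m) {i : Fin m} (h0 : (ι 0).val = i.val)
    (h1 : (ι 1).val = i.val + 1) {g : Sp[2]} :
    emb ι g ∈ mGrp i ↔ g ∈ mGrp (0 : Fin 2) := by
  have hcase : ∀ j : Fin 2, j = 0 ∨ j = 1 := fun j => by omega
  constructor
  · intro h
    refine mem_mGrp.2 ⟨fun a => ?_, fun a ha hb => ?_⟩
    · have := (mem_mGrp.1 h).1 (ι a)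
      rw [emb_stdF, ← push_stdF] at this
      have := congrArg (· ∘ coordMap ι) this
      simpa [push_comp] using this
    · rcases hcase a with rfl | rfl <;> simp at ha hb
  · intro h
    refine mem_mGrp.2 ⟨fun j => ?_, fun j ha hb => ?_⟩
    · by_cases hj : ∃ a, ι a = j
      · obtain ⟨a, rfl⟩ := hj
        rw [emb_stdF, (mem_mGrp.1 h).1 a, push_stdF]
      · push Not at hj
        exact (emb_fix ι g hj).1
    · refine (emb_fix ι g fun a e => ?_).2
      rcases hcase a with rfl | rfl <;> subst e <;> omega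

end CfsgLib.SpPres77
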