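import Mathlib
import Cfsg.Agent.SpPres77.Embed

/-!
A homomorphism on the symplectic group from one on the permutations and one on a rank two subgroup.
-/

set_option autoImplicit false

namespace CfsgLib.SpPres77

open Matrix CfsgLib.Classical.Symp CfsgLib.SympAmalgam Equiv

variable {F : Type*} [Field F] {n : ℕ}

local notation "Sp[" m "]" => Matrix.symplecticGroup (Fin m) F
local notation "Mat[" m "]" => Matrix (Fin m ⊕ Fin m) (Fin m ⊕ Fin m) F

/-- The first three points. -/
def q (hn : 3 ≤ n) (i : Fin 3) : Fin n := ⟨i.val, by omega⟩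

theorem q_ne (hn : 3 ≤ n) {i j : Fin 3} (h : i ≠ j) : q hn i ≠ q hn j := fun e =>
  h (Fin.ext (by simpa [q] using congrArg Fin.val e))

theorem exists_perm_ext {k : ℕ} {α : Type*} [Fintype α] [DecidableEq α] (κ μ : Fin k ↪ α) :
    ∃ σ : Perm α, ∀ i, σ (κ i) = μ i := by
  classical
  let e : {x // x ∈ Set.range κ} ≃ {x // x ∈ Set.range μ} :=
    (Equiv.ofInjective κ κ.injective).symm.trans (Equiv.ofInjective μ μ.injective)
  refine ⟨e.extendSubtype, fun i => ?_⟩
  rw [Equiv.extendSubtype_apply_of_mem e (κ i) ⟨i, rfl⟩]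
  show ((Equiv.ofInjective μ μ.injective) ((Equiv.ofInjective κ κ.injective).symm ⟨κ i, i, rfl⟩)).1 = μ i
  rw [Equiv.ofInjective_symm_apply κ.injective i]
  rfl

/-- The transposition of the two pairs in rank two. -/
noncomputable def swp (F : Type*) [Field F] : Matrix.symplecticGroup (Fin 2) F :=
  permHom 2 F (swap 0 1)

/-- The short root element. -/
noncomputable def xr (F : Type*) [Field F] (a : F) : Matrix.symplecticGroup (Fin 2) F :=
  eT (stdF 0) (a • stdF 1) 0

/-- The shear of the two pairs. -/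
noncomputable def shear (F : Type*) [Field F] : Matrix.symplecticGroup (Fin 2) F :=
  eT (stdE 0) (-stdF 1) 0

/-- The embedded first plane. -/
noncomputable def e0 (F : Type*) [Field F] :
    Matrix.symplecticGroup (Fin 1) F →* Matrix.symplecticGroup (Fin 2) F :=
  emb (oneE (0 : Fin 2))

/-- The embedded second plane. -/
noncomputable def e1 (F : Type*) [Field F] :
    Matrix.symplecticGroup (Fin 1) F →* Matrix.symplecticGroup (Fin 2) F :=
  emb (oneE (1 : Fin 2))

theorem e1_eq (h : Sp[1]) : e1 F h = swp F * e0 F h * (swp F)⁻¹ := by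
  rw [swp, e0, permHom_conj, oneE_trans]
  simp [e1, swap_apply_left]

theorem xr_form (a : F) :
    Cfsg.sympForm 2 F (stdF 0) (a • stdF 1) = 0 := by
  rw [form_smul_right, form_stdF_stdF, mul_zero]

/-- Generators of the rank two group. -/
theorem two_closure (A : Subgroup Sp[2]) (he : (e0 F).range ≤ A) (hP : swp F ∈ A)
    (hx : xr F 1 ∈ A) : A = ⊤ := by
  refine eq_top_of_planes A (fun j => ?_) fun i hi => ?_
  · rw [← range_oneE]
    rintro _ ⟨h, rfl⟩
    rcases (show j = 0 ∨ j = 1 by omega) with rfl | rfl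
    · exact he ⟨h, rfl⟩
    · change e1 F h ∈ A
      rw [e1_eq]
      exact mul_mem (mul_mem hP (he ⟨h, rfl⟩)) (inv_mem hP)
  · obtain rfl : i = 0 := by omega
    have : (⟨(0 : Fin 2).val + 1, hi⟩ : Fin 2) = 1 := rfl
    rw [this, ← one_smul F (stdF (F := F) (1 : Fin 2))]
    exact hx

/-- The hypotheses on the two given homomorphisms. -/
structure Glue {G : Type*} [Group G] (hn : 3 ≤ n) (rho : Perm (Fin n) →* G)
    (lam : Matrix.symplecticGroup (Fin 2) F →* G) : Prop where
  swap01 : rho (swap (q hn 0) (q hn 1)) = lam (swp F)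
  stab2 : ∀ z, z (q hn 0) = q hn 0 → z (q hn 1) = q hn 1 → Commute (rho z) (lam (xr F 1))
  stab1 : ∀ z, z (q hn 0) = q hn 0 → ∀ h, Commute (rho z) (lam (e0 F h))
  long : ∀ h, Commute (lam (xr F 1))
    (rho (swap (q hn 0) (q hn 2)) * lam (e0 F h) * (rho (swap (q hn 0) (q hn 2)))⁻¹)
  disj : ∀ τ : Perm (Fin n), (τ (q hn 0)).val = 2 → (τ (q hn 1)).val = 3 →
    Commute (lam (xr F 1)) (rho τ * lam (xr F 1) * (rho τ)⁻¹)
  chain : ∀ c : Perm (Fin n), c (q hn 0) = q hn 1 → c (q hn 1) = q hn 2 →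
    Commute (lam (xr F 1)) (rho c * lam (xr F 1) * (rho c)⁻¹) ∧
      lam (xr F 1) *
          (rho (swap (q hn 1) (q hn 2)) * lam (xr F 1) * (rho (swap (q hn 1) (q hn 2)))⁻¹) =
        rho c * lam (shear F) * (rho c)⁻¹ * lam (xr F 1) * (rho c * lam (shear F) * (rho c)⁻¹)⁻¹

section Lam

variable {G : Type*} [Group G] {hn : 3 ≤ n} {rho : Perm (Fin n) →* G}
  {lam : Matrix.symplecticGroup (Fin 2) F →* G} (D : Glue hn rho lam)

/-- The base pair. -/
def base (hn : 3 ≤ n) : Fin 2 ↪ Fin n := pairE (q hn 0) (q hn 1) (q_ne hn (by decide))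

namespace Glue

/-- The conjugate copy of the rank two group at a pair. -/
noncomputable def Lam (_D : Glue hn rho lam) (ι : Fin 2 ↪ Fin n) :
    Matrix.symplecticGroup (Fin 2) F →* G :=
  (MulAut.conj (rho (exists_perm_ext (base hn) ι).choose)).toMonoidHom.comp lam

/-- The conjugate copy of the plane group at a point. -/
noncomputable def One (_D : Glue hn rho lam) (a : Fin n) :
    Matrix.symplecticGroup (Fin 1) F →* G :=
  (MulAut.conj (rho (exists_perm_ext (oneE (q hn 0)) (oneE a)).choose)).toMonoidHom.comp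
    (lam.comp (e0 F))

include D in
theorem stab2_all {z : Perm (Fin n)} (h0 : z (q hn 0) = q hn 0) (h1 : z (q hn 1) = q hn 1)
    (g : Sp[2]) : Commute (rho z) (lam g) := by
  have h := two_closure ((Subgroup.centralizer {rho z}).comap lam)
    (fun _ ⟨h, e⟩ => e ▸ Subgroup.mem_centralizer_singleton_iff.2 (D.stab1 z h0 h).eq.symm)
    (Subgroup.mem_centralizer_singleton_iff.2 (by
      rw [← D.swap01, ← map_mul, ← map_mul]
      congr 1
      have := Equiv.swap_apply_apply z (q hn 0) (q hn 1)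
      rw [h0, h1] at this
      exact (eq_mul_inv_iff_mul_eq.1 this)))
    (Subgroup.mem_centralizer_singleton_iff.2 (D.stab2 z h0 h1).eq.symm)
  exact (Subgroup.mem_centralizer_singleton_iff.1
    (h.ge (Subgroup.mem_top g) : lam g ∈ Subgroup.centralizer {rho z})).symm

theorem Lam_eq {ι : Fin 2 ↪ Fin n} {σ : Perm (Fin n)} (h0 : σ (q hn 0) = ι 0)
    (h1 : σ (q hn 1) = ι 1) (g : Sp[2]) : D.Lam ι g = rho σ * lam g * (rho σ)⁻¹ := by
  set τ := (exists_perm_ext (base hn) ι).choose with hτ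
  have hs : ∀ i, τ (base hn i) = ι i := (exists_perm_ext (base hn) ι).choose_spec
  have hc := D.stab2_all (z := σ⁻¹ * τ)
    (by rw [Perm.mul_apply, Perm.inv_eq_iff_eq, h0]; exact hs 0)
    (by rw [Perm.mul_apply, Perm.inv_eq_iff_eq, h1]; exact hs 1) g
  rw [map_mul, map_inv] at hc
  change rho τ * lam g * (rho τ)⁻¹ = _
  calc rho τ * lam g * (rho τ)⁻¹
      = rho σ * ((rho σ)⁻¹ * rho τ * lam g) * (rho τ)⁻¹ := by group
    _ = _ := by rw [hc.eq]; group

theorem One_eq {a : Fin n} {σ : Perm (Fin n)} (h0 : σ (q hn 0) = a) (h : Sp[1]) :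
    D.One a h = rho σ * lam (e0 F h) * (rho σ)⁻¹ := by
  set τ := (exists_perm_ext (oneE (q hn 0)) (oneE a)).choose with hτ
  have hs : τ (q hn 0) = a := (exists_perm_ext (oneE (q hn 0)) (oneE a)).choose_spec 0
  have hc := D.stab1 (σ⁻¹ * τ) (by rw [Perm.mul_apply, Perm.inv_eq_iff_eq, h0]; exact hs) h
  rw [map_mul, map_inv] at hc
  change rho τ * lam (e0 F h) * (rho τ)⁻¹ = _
  calc rho τ * lam (e0 F h) * (rho τ)⁻¹
      = rho σ * ((rho σ)⁻¹ * rho τ * lam (e0 F h)) * (rho τ)⁻¹ := by group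
    _ = _ := by rw [hc.eq]; group

theorem conj_Lam (π : Perm (Fin n)) (ι : Fin 2 ↪ Fin n) (g : Sp[2]) :
    rho π * D.Lam ι g * (rho π)⁻¹ = D.Lam (ι.trans π.toEmbedding) g := by
  obtain ⟨σ, hσ⟩ := exists_perm_ext (base hn) ι
  rw [D.Lam_eq (σ := σ) (hσ 0) (hσ 1), D.Lam_eq (ι := ι.trans π.toEmbedding) (σ := π * σ)
    (congrArg π (hσ 0)) (congrArg π (hσ 1)), map_mul]
  group

theorem conj_One (π : Perm (Fin n)) (a : Fin n) (h : Sp[1]) :
    rho π * D.One a h * (rho π)⁻¹ = D.One (π a) h := by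
  obtain ⟨σ, hσ⟩ := exists_perm_ext (oneE (q hn 0)) (oneE a)
  have h0 : σ (q hn 0) = a := hσ 0
  rw [D.One_eq (σ := σ) h0, D.One_eq (σ := π * σ) (congrArg π h0), map_mul]
  group

theorem Lam_base (g : Sp[2]) : D.Lam (base hn) g = lam g := by
  rw [D.Lam_eq (ι := base hn) (σ := 1) rfl rfl]; simp

theorem One_base (h : Sp[1]) : D.One (q hn 0) h = lam (e0 F h) := by
  rw [D.One_eq (a := q hn 0) (σ := 1) rfl]; simp

theorem Lam_e (ι : Fin 2 ↪ Fin n) (a : Fin 2) (h : Sp[1]) :
    D.Lam ι (emb (oneE a) h) = D.One (ι a) h := by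
  obtain ⟨σ, hσ⟩ := exists_perm_ext (base hn) ι
  have h0 : σ (q hn 0) = ι 0 := hσ 0
  have h1 : σ (q hn 1) = ι 1 := hσ 1
  rcases (show a = 0 ∨ a = 1 by omega) with rfl | rfl
  · rw [D.Lam_eq h0 h1, D.One_eq h0]; rfl
  · change D.Lam ι (e1 F h) = _
    rw [D.Lam_eq h0 h1, D.One_eq (σ := σ * swap (q hn 0) (q hn 1))
      (by rw [Perm.mul_apply, swap_apply_left, h1]), e1_eq, map_mul, map_mul, map_inv, ← D.swap01,
      map_mul]
    group

theorem Lam_swp (ι : Fin 2 ↪ Fin n) : D.Lam ι (swp F) = rho (swap (ι 0) (ι 1)) := by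
  obtain ⟨σ, hσ⟩ := exists_perm_ext (base hn) ι
  have h0 : σ (q hn 0) = ι 0 := hσ 0
  have h1 : σ (q hn 1) = ι 1 := hσ 1
  rw [D.Lam_eq h0 h1, ← D.swap01, ← h0, ← h1, Equiv.swap_apply_apply, map_mul, map_mul, map_inv]

/-- A plane group at a point outside the pair commutes with the copy at the pair. -/
theorem One_commute_Lam (ι : Fin 2 ↪ Fin n) (c : Fin n) (hc : ∀ a, ι a ≠ c) (h : Sp[1]) (g : Sp[2]) :
    Commute (D.One c h) (D.Lam ι g) := by
  have hsame : ∀ (a b : Fin n), a ≠ b → ∀ h h', Commute (D.One a h) (D.One b h') := by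
    intro a b hab h h'
    have := ((emb_commute (F := F) (oneE (0 : Fin 2)) (oneE 1) (fun _ _ => show (0 : Fin 2) ≠ 1 by decide) h h')).map
      (D.Lam (pairE a b hab))
    rwa [D.Lam_e, D.Lam_e] at this
  suffices hb : ∀ g, Commute (D.One (q hn 2) h) (lam g) by
    let κ : Fin 3 ↪ Fin n := ⟨q hn, fun i j e => by_contra fun hne => q_ne hn hne e⟩
    have hinj : Function.Injective ![ι 0, ι 1, c] := by
      intro i j e
      fin_cases i <;> fin_cases j <;> first | rfl | exact absurd e (hc _) | exact absurd e (hc _).symm |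
        exact absurd (ι.injective e) (by decide)
    obtain ⟨σ, hσ⟩ := exists_perm_ext κ ⟨_, hinj⟩
    have := (hb g).map (MulAut.conj (rho σ)).toMonoidHom
    simp only [MulEquiv.toMonoidHom_eq_coe, MonoidHom.coe_coe, MulAut.conj_apply] at this
    rwa [D.conj_One, show σ (q hn 2) = c from hσ 2, ← D.Lam_eq (σ := σ) (hσ 0) (hσ 1)] at this
  intro g
  have htop := two_closure ((Subgroup.centralizer {D.One (q hn 2) h}).comap lam) ?_ ?_ ?_
  · exact (Subgroup.mem_centralizer_singleton_iff.1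
      (htop.ge (Subgroup.mem_top g) : lam g ∈ Subgroup.centralizer {D.One (q hn 2) h})).symm
  · rintro _ ⟨h', rfl⟩
    refine Subgroup.mem_centralizer_singleton_iff.2 ?_
    rw [← D.One_base]
    exact (hsame _ _ (q_ne hn (show (0 : Fin 3) ≠ 2 by decide)) h' h).eq
  · refine Subgroup.mem_centralizer_singleton_iff.2 ?_
    rw [← D.swap01, ← mul_inv_eq_iff_eq_mul, D.conj_One,
      swap_apply_of_ne_of_ne (q_ne hn (by decide)) (q_ne hn (by decide))]
  · refine Subgroup.mem_centralizer_singleton_iff.2 ?_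
    rw [D.One_eq (σ := swap (q hn 0) (q hn 2)) (swap_apply_left _ _)]
    exact (D.long h).eq

/-- Copies at disjoint pairs commute. -/
theorem Lam_commute (ι κ : Fin 2 ↪ Fin n) (h : ∀ a b, ι a ≠ κ b) (g g' : Sp[2]) :
    Commute (D.Lam ι g) (D.Lam κ g') := by
  have hinj : Function.Injective ![ι 0, ι 1, κ 0, κ 1] := by
    intro i j e
    fin_cases i <;> fin_cases j <;>
      (first | rfl | exact absurd (ι.injective e) (by decide) | exact absurd (κ.injective e) (by decide) | exact absurd e (h _ _) | exact absurd e.symm (h _ _))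
  have hn4 : 4 ≤ n := by simpa using Fintype.card_le_of_injective _ hinj
  let p : Fin 4 ↪ Fin n := ⟨fun i => ⟨i.val, by omega⟩, fun i j e => Fin.ext (by simpa using e)⟩
  obtain ⟨σ, hσ⟩ := exists_perm_ext p ⟨_, hinj⟩
  let κ₀ : Fin 2 ↪ Fin n := pairE (p 2) (p 3) (p.injective.ne (by decide))
  have hκ : κ₀.trans σ.toEmbedding = κ := Function.Embedding.ext fun a => by
    rcases (show a = 0 ∨ a = 1 by omega) with rfl | rfl
    exacts [hσ 2, hσ 3]
  suffices hb : ∀ g g', Commute (lam g) (D.Lam κ₀ g') by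
    have := (hb g g').map (MulAut.conj (rho σ)).toMonoidHom
    simp only [MulEquiv.toMonoidHom_eq_coe, MonoidHom.coe_coe, MulAut.conj_apply] at this
    rwa [D.conj_Lam, hκ, ← D.Lam_eq (ι := ι) (σ := σ) (hσ 0) (hσ 1)] at this
  intro g g'
  have hq0 : q hn 0 = p 0 := rfl
  have hq1 : q hn 1 = p 1 := rfl
  have hx : ∀ g', Commute (lam (xr F 1)) (D.Lam κ₀ g') := by
    intro g'
    have htop := two_closure ((Subgroup.centralizer {lam (xr F 1)}).comap (D.Lam κ₀)) ?_ ?_ ?_
    · exact (Subgroup.mem_centralizer_singleton_iff.1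
        (htop.ge (Subgroup.mem_top g') : D.Lam κ₀ g' ∈ Subgroup.centralizer {lam (xr F 1)})).symm
    · rintro _ ⟨h', rfl⟩
      refine Subgroup.mem_centralizer_singleton_iff.2 ?_
      rw [show D.Lam κ₀ (e0 F h') = D.One (p 2) h' from D.Lam_e κ₀ 0 h', ← D.Lam_base]
      exact (D.One_commute_Lam (base hn) (p 2) (fun a => by
        rcases (show a = 0 ∨ a = 1 by omega) with rfl | rfl
        exacts [p.injective.ne (show (0 : Fin 4) ≠ 2 by decide), p.injective.ne (show (1 : Fin 4) ≠ 2 by decide)])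
        h' _).eq
    · refine Subgroup.mem_centralizer_singleton_iff.2 ?_
      rw [D.Lam_swp]
      exact (D.stab2_all
        (swap_apply_of_ne_of_ne (p.injective.ne (show (0 : Fin 4) ≠ 2 by decide))
          (p.injective.ne (show (0 : Fin 4) ≠ 3 by decide)))
        (swap_apply_of_ne_of_ne (p.injective.ne (show (1 : Fin 4) ≠ 2 by decide))
          (p.injective.ne (show (1 : Fin 4) ≠ 3 by decide))) _).eq
    · obtain ⟨τ, hτ⟩ := exists_perm_ext (base hn) κ₀
      refine Subgroup.mem_centralizer_singleton_iff.2 ?_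
      rw [D.Lam_eq (σ := τ) (hτ 0) (hτ 1)]
      exact (D.disj τ (by rw [show τ (q hn 0) = p 2 from hτ 0]; rfl)
        (by rw [show τ (q hn 1) = p 3 from hτ 1]; rfl)).eq.symm
  have htop := two_closure ((Subgroup.centralizer {D.Lam κ₀ g'}).comap lam) ?_ ?_ ?_
  · exact (Subgroup.mem_centralizer_singleton_iff.1
      (htop.ge (Subgroup.mem_top g) : lam g ∈ Subgroup.centralizer {D.Lam κ₀ g'}))
  · rintro _ ⟨h', rfl⟩
    refine Subgroup.mem_centralizer_singleton_iff.2 ?_
    rw [← D.One_base]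
    exact (D.One_commute_Lam κ₀ _ (fun a => by
      rcases (show a = 0 ∨ a = 1 by omega) with rfl | rfl
      exacts [p.injective.ne (show (2 : Fin 4) ≠ 0 by decide), p.injective.ne (show (3 : Fin 4) ≠ 0 by decide)])
      h' g').eq
  · refine Subgroup.mem_centralizer_singleton_iff.2 ?_
    rw [← D.swap01, ← mul_inv_eq_iff_eq_mul, D.conj_Lam]
    congr 1
    refine congrArg _ (Function.Embedding.ext fun a => ?_)
    rcases (show a = 0 ∨ a = 1 by omega) with rfl | rfl
    · exact swap_apply_of_ne_of_ne (p.injective.ne (show (2 : Fin 4) ≠ 0 by decide))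
        (p.injective.ne (show (2 : Fin 4) ≠ 1 by decide))
    · exact swap_apply_of_ne_of_ne (p.injective.ne (show (3 : Fin 4) ≠ 0 by decide))
        (p.injective.ne (show (3 : Fin 4) ≠ 1 by decide))
  · exact Subgroup.mem_centralizer_singleton_iff.2 (hx g').eq

end Glue

end Lam

end CfsgLib.SpPres77
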