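import Mathlib
import Cfsg.Agent.SpPres77.Glue

/-!
Short root elements along a chain of three pairs.
-/

set_option autoImplicit false

namespace CfsgLib.SpPres77

open Matrix CfsgLib.Classical.Symp CfsgLib.SympAmalgam Equiv

variable {F : Type*} [Field F] {n : ℕ}

local notation "Sp[" m "]" => Matrix.symplecticGroup (Fin m) F
local notation "Mat[" m "]" => Matrix (Fin m ⊕ Fin m) (Fin m ⊕ Fin m) F

theorem xr_zero : xr F 0 = 1 := by rw [xr, zero_smul, eT_zero_zero]

theorem xr_conj_swp (a : F) : swp F * xr F a * (swp F)⁻¹ = xr F a := by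
  rw [xr, conj_eT, swp, permHom_stdF, mulVec_smul, permHom_stdF, swap_apply_left, swap_apply_right]
  refine symp_ext fun x => ?_
  rw [eT_mulVec (by rw [form_smul_right, form_stdF_stdF, mul_zero]),
    eT_mulVec (by rw [form_smul_right, form_stdF_stdF, mul_zero])]
  simp only [form_smul_right]
  module

theorem xr_scale_left {t : F} (ht : t ≠ 0) :
    ∃ h : Sp[1], xr F t = e0 F h * xr F 1 * (e0 F h)⁻¹ := by
  obtain ⟨g, hg, -, g2⟩ := exists_plane_pair (m := 2) (k := 0) ht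
  rw [← range_oneE] at hg
  obtain ⟨h, rfl⟩ := hg
  refine ⟨h, ?_⟩
  rw [xr, xr, one_smul, conj_eT]
  rw [show ((e0 F h : Sp[2]) : Mat[2]) *ᵥ stdF (1 : Fin 2) = stdF 1 from
      (emb_fix (oneE (0 : Fin 2)) h fun _ => show (0 : Fin 2) ≠ 1 by decide).1,
    show ((e0 F h : Sp[2]) : Mat[2]) *ᵥ stdF (0 : Fin 2) = t • stdF 0 from g2,
    eT_smul_left (form_stdF_stdF _ _)]
  simp

theorem xr_scale_right {t : F} (ht : t ≠ 0) :
    ∃ h : Sp[1], xr F t = e1 F h * xr F 1 * (e1 F h)⁻¹ := by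
  obtain ⟨h, e⟩ := xr_scale_left ht
  refine ⟨h, ?_⟩
  have h1 : (swp F)⁻¹ * xr F 1 * swp F = xr F 1 := by
    conv_lhs => rw [← xr_conj_swp (1 : F)]
    group
  rw [e1_eq, ← xr_conj_swp t, e]
  calc swp F * (e0 F h * xr F 1 * (e0 F h)⁻¹) * (swp F)⁻¹
      = swp F * e0 F h * ((swp F)⁻¹ * xr F 1 * swp F) * ((e0 F h)⁻¹ * (swp F)⁻¹) := by
        rw [h1]; group
    _ = _ := by group

theorem mgrp_two {g : Sp[2]} (hg : g ∈ mGrp (0 : Fin 2)) :
    ∃ b a c : F, g = xr F b * spT (stdF 0) a * spT (stdF 1) c := by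
  obtain ⟨hF, -⟩ := mem_mGrp.1 hg
  set a := Cfsg.sympForm 2 F (stdE 0) ((g : Mat[2]) *ᵥ stdE 0)
  set b := Cfsg.sympForm 2 F (stdE 1) ((g : Mat[2]) *ᵥ stdE 0)
  set c := Cfsg.sympForm 2 F (stdE 1) ((g : Mat[2]) *ᵥ stdE 1)
  refine ⟨b, a, c, ?_⟩
  rw [xr, eT_mul_spT (xr_form b), zero_add]
  have hexp : ∀ x : Fin 2 ⊕ Fin 2 → F, x =
      Cfsg.sympForm 2 F (stdE 0) x • stdF 0 + Cfsg.sympForm 2 F (stdE 1) x • stdF 1 +
        (Cfsg.sympForm 2 F x (stdF 0) • stdE 0 + Cfsg.sympForm 2 F x (stdF 1) • stdE 1) := by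
    intro x
    conv_lhs => rw [vec_sum x]
    rw [Fin.sum_univ_two, form_swap (stdE 0) x, form_swap (stdE 1) x]
    simp only [form_stdE_right, form_stdF_right, neg_neg]
    abel
  have hf : ∀ i j, Cfsg.sympForm 2 F ((g : Mat[2]) *ᵥ stdE i) (stdF j) = if i = j then 1 else 0 :=
    fun i j => by
      have := form_mulVec g (stdE i) (stdF j)
      rwa [hF j, form_stdE_stdF] at this
  have hb : Cfsg.sympForm 2 F (stdE 0) ((g : Mat[2]) *ᵥ stdE 1) = b := by
    have := form_mulVec g (stdE 0) (stdE 1)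
    rw [hexp ((g : Mat[2]) *ᵥ stdE 0), form_stdE_stdE] at this
    simp only [form_add_left, form_smul_left, hf, if_true, Fin.reduceEq, if_false, zero_mul,
      add_zero, one_mul] at this
    rw [form_swap (stdF 0), hf, form_swap (stdF 1), hf] at this
    simp only [Fin.reduceEq, if_false, if_true, neg_zero, mul_zero, mul_neg, mul_one] at this
    linear_combination this
  refine symp_ext_std (fun i => ?_) fun j => ?_
  · rw [mul_mulVec, eT_mulVec (xr_form b), hexp ((g : Mat[2]) *ᵥ stdE i), spT_mulVec]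
    rcases (show i = 0 ∨ i = 1 by omega) with rfl | rfl <;>
      simp only [hf, hb, form_add_left, form_smul_left, form_smul_right, form_stdE_stdF,
        form_stdF_stdF, if_true, Fin.reduceEq, if_false, zero_smul, one_smul, mul_zero, mul_one,
        add_zero, zero_add] <;> module
  · rw [mul_mulVec, hF j, spT_mulVec, form_stdF_stdF, mul_zero, zero_smul, add_zero,
      eT_fix (xr_form b) a (form_stdF_stdF _ _) (by rw [form_smul_right, form_stdF_stdF, mul_zero])]

namespace Glue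

variable {G : Type*} [Group G] {hn : 3 ≤ n} {rho : Perm (Fin n) →* G}
  {lam : Matrix.symplecticGroup (Fin 2) F →* G} (D : Glue hn rho lam)

theorem One_commute_One {a b : Fin n} (hab : a ≠ b) (h h' : Sp[1]) :
    Commute (D.One a h) (D.One b h') := by
  have := ((emb_commute (F := F) (oneE (0 : Fin 2)) (oneE 1)
    (fun _ _ => show (0 : Fin 2) ≠ 1 by decide) h h')).map (D.Lam (pairE a b hab))
  rwa [D.Lam_e, D.Lam_e] at this

theorem Lam_swap (ι κ : Fin 2 ↪ Fin n) (h0 : κ 0 = ι 1) (h1 : κ 1 = ι 0) (g : Sp[2]) :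
    D.Lam κ g = D.Lam ι (swp F * g * (swp F)⁻¹) := by
  rw [map_mul, map_mul, map_inv, D.Lam_swp, D.conj_Lam]
  refine congrArg (fun i => D.Lam i g) (Function.Embedding.ext fun a => ?_)
  rcases (show a = 0 ∨ a = 1 by omega) with rfl | rfl
  · rw [h0]; exact (swap_apply_left _ _).symm
  · rw [h1]; exact (swap_apply_right _ _).symm

theorem chain_xr (ι κ : Fin 2 ↪ Fin n) (h : ι 1 = κ 0) (h' : ι 0 ≠ κ 1) (a b : F) :
    Commute (D.Lam ι (xr F a)) (D.Lam κ (xr F b)) := by
  rcases eq_or_ne a 0 with rfl | ha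
  · rw [xr_zero, map_one]; exact Commute.one_left _
  rcases eq_or_ne b 0 with rfl | hb
  · rw [xr_zero, map_one]; exact Commute.one_right _
  have h10 : ι 1 ≠ ι 0 := ι.injective.ne (by decide)
  have h01 : κ 0 ≠ κ 1 := κ.injective.ne (by decide)
  have base1 : Commute (D.Lam ι (xr F 1)) (D.Lam κ (xr F 1)) := by
    let p : Fin 3 ↪ Fin n := ⟨q hn, fun i j e => by_contra fun hne => q_ne hn hne e⟩
    have hinj : Function.Injective ![ι 0, ι 1, κ 1] := by
      intro i j e
      fin_cases i <;> fin_cases j <;>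
        (first | rfl | exact absurd e h' | exact absurd e.symm h' | exact absurd e h10 |
          exact absurd e.symm h10 | exact absurd (h.symm.trans e) h01 | exact absurd (h.symm.trans e.symm) h01)
    obtain ⟨σ, hσ⟩ := exists_perm_ext p ⟨_, hinj⟩
    let κ₀ : Fin 2 ↪ Fin n := pairE (q hn 1) (q hn 2) (q_ne hn (by decide))
    obtain ⟨c, hc⟩ := exists_perm_ext (base hn) κ₀
    have h0 := (D.chain c (hc 0) (hc 1)).1.map (MulAut.conj (rho σ)).toMonoidHom
    simp only [MulEquiv.toMonoidHom_eq_coe, MonoidHom.coe_coe, MulAut.conj_apply] at h0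
    rw [← D.Lam_eq (ι := κ₀) (σ := c) (hc 0) (hc 1), D.conj_Lam,
      ← D.Lam_eq (ι := ι) (σ := σ) (hσ 0) (hσ 1)] at h0
    have e : κ₀.trans σ.toEmbedding = κ := Function.Embedding.ext fun x => by
      rcases (show x = 0 ∨ x = 1 by omega) with rfl | rfl
      · exact (hσ 1).trans h
      · exact hσ 2
    rwa [e] at h0
  obtain ⟨s, es⟩ := xr_scale_left (F := F) ha
  obtain ⟨t, et⟩ := xr_scale_right (F := F) hb
  have es0 : D.Lam ι (e0 F s) = D.One (ι 0) s := D.Lam_e ι 0 s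
  have et1 : D.Lam κ (e1 F t) = D.One (κ 1) t := D.Lam_e κ 1 t
  have c1 : Commute (D.Lam κ (xr F 1)) (D.One (ι 0) s) :=
    (D.One_commute_Lam κ _ (fun x => by
      rcases (show x = 0 ∨ x = 1 by omega) with rfl | rfl
      · exact fun e => h10 (h.trans e)
      · exact fun e => h' e.symm) s _).symm
  have c2 : Commute (D.One (κ 1) t) (D.Lam ι (xr F a)) :=
    D.One_commute_Lam ι _ (fun x => by
      rcases (show x = 0 ∨ x = 1 by omega) with rfl | rfl
      · exact h'
      · exact fun e => h01 (h.symm.trans e)) t _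
  have c3 : Commute (D.Lam ι (xr F a)) (D.Lam κ (xr F 1)) := by
    rw [es, map_mul, map_mul, map_inv, es0]
    exact ((c1.symm.mul_left base1).mul_left c1.symm.inv_left)
  rw [et, map_mul, map_mul, map_inv, et1]
  exact (c2.symm.mul_right c3).mul_right c2.symm.inv_right

theorem chain_mgrp (ι κ : Fin 2 ↪ Fin n) (h : ι 1 = κ 0) (h' : ι 0 ≠ κ 1) {g g' : Sp[2]}
    (hg : g ∈ mGrp (0 : Fin 2)) (hg' : g' ∈ mGrp (0 : Fin 2)) :
    Commute (D.Lam ι g) (D.Lam κ g') := by
  have h10 : ι 1 ≠ ι 0 := ι.injective.ne (by decide)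
  have h01 : κ 0 ≠ κ 1 := κ.injective.ne (by decide)
  have hoff : ∀ x : Fin 2, κ x ≠ ι 0 := fun x => by
    rcases (show x = 0 ∨ x = 1 by omega) with rfl | rfl
    · exact fun e => h10 (h.trans e)
    · exact fun e => h' e.symm
  have hoff' : ∀ x : Fin 2, ι x ≠ κ 1 := fun x => by
    rcases (show x = 0 ∨ x = 1 by omega) with rfl | rfl
    · exact h'
    · exact fun e => h01 (h.symm.trans e)
  obtain ⟨b, a, c, rfl⟩ := mgrp_two hg
  obtain ⟨b', a', c', rfl⟩ := mgrp_two hg'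
  have rng : ∀ (d : F), ∃ u : Sp[1], ∀ j : Fin 2, emb (oneE j) u = spT (stdF j) d := fun d => by
    refine ⟨spT (stdF 0) d, fun j => ?_⟩
    rw [← eT_zero, emb_eT _ (form_zero_right _), map_zero, push_stdF, eT_zero]
    rfl
  obtain ⟨ua, hua⟩ := rng a
  obtain ⟨uc, huc⟩ := rng c
  obtain ⟨ua', hua'⟩ := rng a'
  obtain ⟨uc', huc'⟩ := rng c'
  have cl : ∀ (b d : F) (j : Fin 2), Commute (xr F b) (spT (stdF j) d) := fun b d j => by
    refine mul_inv_eq_iff_eq_mul.1 ?_
    rw [conj_spT, xr, eT_fix (xr_form b) 0 (form_stdF_stdF _ _)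
      (by rw [form_smul_right, form_stdF_stdF, mul_zero])]
  have ss : ∀ (i j : Fin 2) (d d' : F), Commute (spT (stdF (F := F) i) d) (spT (stdF j) d') :=
    fun i j d d' => spT_commute (form_stdF_stdF i j) d d'
  have La : D.Lam ι (spT (stdF 0) a) = D.One (ι 0) ua := by rw [← hua, D.Lam_e]
  have Lc : D.Lam ι (spT (stdF 1) c) = D.Lam κ (spT (stdF 0) c) := by
    rw [← huc, ← huc, D.Lam_e, D.Lam_e, h]
  have La' : D.Lam κ (spT (stdF 0) a') = D.Lam ι (spT (stdF 1) a') := by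
    rw [← hua', ← hua', D.Lam_e, D.Lam_e, h]
  have Lc' : D.Lam κ (spT (stdF 1) c') = D.One (κ 1) uc' := by rw [← huc', D.Lam_e]
  simp only [map_mul]
  refine ((Commute.mul_left ?_ ?_).mul_left ?_)
  · refine (Commute.mul_right (Commute.mul_right ?_ ?_) ?_)
    · exact D.chain_xr ι κ h h' b b'
    · rw [La']; exact (cl b a' 1).map (D.Lam ι)
    · rw [Lc']; exact (D.One_commute_Lam ι _ hoff' uc' _).symm
  · rw [La]
    refine (Commute.mul_right (Commute.mul_right ?_ ?_) ?_) <;>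
      exact D.One_commute_Lam κ _ hoff ua _
  · refine (Commute.mul_right (Commute.mul_right ?_ ?_) ?_)
    · rw [Lc]; exact ((cl b' c 0).symm).map (D.Lam κ)
    · rw [Lc]; exact (ss 0 0 c a').map (D.Lam κ)
    · rw [Lc]; exact (ss 0 1 c c').map (D.Lam κ)

end Glue

end CfsgLib.SpPres77
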