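import Mathlib
import Cfsg.Agent.SpPres77.Chain

/-!
The glued homomorphism, by the universal property of the symplectic amalgam.
-/

set_option autoImplicit false

namespace CfsgLib.SpPres77

open Matrix CfsgLib.Classical.Symp CfsgLib.SympAmalgam Equiv

variable {F : Type*} [Field F] {n : ℕ}

local notation "Sp[" m "]" => Matrix.symplecticGroup (Fin m) F
local notation "Mat[" m "]" => Matrix (Fin m ⊕ Fin m) (Fin m ⊕ Fin m) F

theorem join_of_le {S G : Type*} [Group S] [Group G] {T : Type*} [Group T] (e : T →* S)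
    (he : Function.Injective e) (L : T →* G) {A A' : Subgroup S} (f : A →* G) (f' : A' →* G)
    (h : A ≤ e.range) (h' : A' ≤ e.range)
    (hf : ∀ t (ht : e t ∈ A), f ⟨e t, ht⟩ = L t) (hf' : ∀ t (ht : e t ∈ A'), f' ⟨e t, ht⟩ = L t) :
    ∃ Ψ : ↥(A ⊔ A') →* G, (∀ g (hg : g ∈ A), Ψ ⟨g, Subgroup.mem_sup_left hg⟩ = f ⟨g, hg⟩) ∧
      (∀ g (hg : g ∈ A'), Ψ ⟨g, Subgroup.mem_sup_right hg⟩ = f' ⟨g, hg⟩) := by
  let inv := (MonoidHom.ofInjective he).symm.toMonoidHom
  have hinv : ∀ t (ht : e t ∈ e.range), inv ⟨e t, ht⟩ = t := fun t ht =>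
    (MonoidHom.ofInjective he).injective (by
      apply Subtype.ext
      simp [inv]; rfl)
  refine ⟨(L.comp inv).comp (Subgroup.inclusion (sup_le h h')), fun g hg => ?_, fun g hg => ?_⟩
  · obtain ⟨t, rfl⟩ := h hg
    rw [hf t hg]; exact congrArg L (hinv t _)
  · obtain ⟨t, rfl⟩ := h' hg
    rw [hf' t hg]; exact congrArg L (hinv t _)

theorem join_of_commute {S G : Type*} [Group S] [Group G] {A A' : Subgroup S} (f : A →* G)
    (f' : A' →* G) (hc : ∀ (a : A) (b : A'), Commute (a : S) b)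
    (hcf : ∀ (a : A) (b : A'), Commute (f a) (f' b))
    (hag : ∀ g (h : g ∈ A) (h' : g ∈ A'), f ⟨g, h⟩ = f' ⟨g, h'⟩) :
    ∃ Ψ : ↥(A ⊔ A') →* G, (∀ g (hg : g ∈ A), Ψ ⟨g, Subgroup.mem_sup_left hg⟩ = f ⟨g, hg⟩) ∧
      (∀ g (hg : g ∈ A'), Ψ ⟨g, Subgroup.mem_sup_right hg⟩ = f' ⟨g, hg⟩) := by
  have hmem : ∀ g : ↥(A ⊔ A'), ∃ (a : A) (b : A'), (g : S) = a * b := by
    intro g
    have h : (MonoidHom.noncommCoprod A.subtype A'.subtype hc).range = A ⊔ A' :=
      (MonoidHom.noncommCoprod_range A.subtype A'.subtype hc).trans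
        (congrArg₂ (· ⊔ ·) A.range_subtype A'.range_subtype)
    obtain ⟨⟨a, b⟩, e⟩ := h.ge g.2
    exact ⟨a, b, e.symm⟩
  choose pa pb hp using hmem
  have key : ∀ (a a' : A) (b b' : A'), (a : S) * b = a' * b' → f a * f' b = f a' * f' b' := by
    intro a a' b b' e
    have e' : ((a'⁻¹ * a : A) : S) = ((b' * b⁻¹ : A') : S) := by
      rw [Subgroup.coe_mul, Subgroup.coe_mul, Subgroup.coe_inv, Subgroup.coe_inv]
      rw [eq_mul_inv_iff_mul_eq, mul_assoc, e, inv_mul_cancel_left]
    have h2 := hag _ (a'⁻¹ * a).2 (by rw [e']; exact (b' * b⁻¹).2)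
    have h3 : f' ⟨_, (by rw [e']; exact (b' * b⁻¹).2 : ((a'⁻¹ * a : A) : S) ∈ A')⟩ = f' (b' * b⁻¹) :=
      congrArg f' (Subtype.ext e')
    rw [h3, Subtype.coe_eta, map_mul, map_mul, map_inv, map_inv, inv_mul_eq_iff_eq_mul] at h2
    rw [h2]; group
  refine ⟨MonoidHom.mk' (fun g => f (pa g) * f' (pb g)) fun g g' => ?_, fun g hg => ?_, fun g hg => ?_⟩
  · have hval : ((pa (g * g') : A) : S) * pb (g * g') =
        ((pa g * pa g' : A) : S) * (pb g * pb g' : A') := by
      rw [← hp, Subgroup.coe_mul, hp g, hp g', Subgroup.coe_mul, Subgroup.coe_mul]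
      calc (pa g : S) * pb g * (pa g' * pb g') = pa g * (pb g * pa g') * pb g' := by group
        _ = _ := by rw [← (hc (pa g') (pb g)).eq]; group
    rw [key _ _ _ _ hval, map_mul, map_mul]
    calc f (pa g) * f (pa g') * (f' (pb g) * f' (pb g'))
        = f (pa g) * (f (pa g') * f' (pb g)) * f' (pb g') := by group
      _ = _ := by rw [(hcf _ _).eq]; group
  · show f (pa _) * f' (pb _) = _
    rw [key _ ⟨g, hg⟩ _ 1 (by rw [← hp]; simp), map_one, mul_one]
  · show f (pa _) * f' (pb _) = _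
    rw [key _ 1 _ ⟨g, hg⟩ (by rw [← hp]; simp), map_one, one_mul]

theorem mgrp_commute {i i' : Fin n} {g g' : Sp[n]} (hg : g ∈ mGrp i) (hg' : g' ∈ mGrp i') :
    Commute g g' := by
  have hfix : ∀ (h h' : Sp[n]), (∀ j, (h : Mat[n]) *ᵥ stdF j = stdF j) →
      (∀ j, (h' : Mat[n]) *ᵥ stdF j = stdF j) → ∀ l,
      (h : Mat[n]) *ᵥ ((h' : Mat[n]) *ᵥ stdE l - stdE l) = (h' : Mat[n]) *ᵥ stdE l - stdE l := by
    intro h h' hh hh' l
    set u := (h' : Mat[n]) *ᵥ stdE l - stdE l with hu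
    have hu0 : ∀ j, u (Sum.inr j) = 0 := fun j => by
      rw [← form_stdF_right u j, hu, form_sub_left]
      have := form_mulVec h' (stdE l) (stdF j)
      rw [hh' j] at this
      rw [this, sub_self]
    rw [vec_sum u, mulVec_sum]
    refine Finset.sum_congr rfl fun j _ => ?_
    rw [hu0 j, zero_smul, add_zero, mulVec_smul, hh j]
  obtain ⟨hF, -⟩ := mem_mGrp.1 hg
  obtain ⟨hF', -⟩ := mem_mGrp.1 hg'
  refine symp_ext_std (fun l => ?_) fun l => ?_
  · have h1 := hfix g g' hF hF' l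
    have h2 := hfix g' g hF' hF l
    rw [mulVec_sub] at h1 h2
    rw [mul_mulVec, mul_mulVec, sub_eq_iff_eq_add.1 h1, sub_eq_iff_eq_add.1 h2]
    abel
  · rw [mul_mulVec, mul_mulVec, hF l, hF' l, hF l]

theorem swp_emb (ι : Fin 2 ↪ Fin n) : emb ι (swp F) = permHom n F (swap (ι 0) (ι 1)) := by
  refine symp_ext_std (fun i => ?_) fun i => ?_ <;> by_cases hi : ∃ a, ι a = i
  · obtain ⟨a, rfl⟩ := hi
    rw [emb_stdE, swp, permHom_stdE, push_stdE, permHom_stdE]
    exact congrArg stdE (ι.injective.map_swap 0 1 a)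
  · push Not at hi
    rw [(emb_fix ι _ hi).2, permHom_stdE, swap_apply_of_ne_of_ne (hi 0).symm (hi 1).symm]
  · obtain ⟨a, rfl⟩ := hi
    rw [emb_stdF, swp, permHom_stdF, push_stdF, permHom_stdF]
    exact congrArg stdF (ι.injective.map_swap 0 1 a)
  · push Not at hi
    rw [(emb_fix ι _ hi).1, permHom_stdF, swap_apply_of_ne_of_ne (hi 0).symm (hi 1).symm]

namespace Glue

variable {G : Type*} [Group G] {hn : 3 ≤ n} {rho : Perm (Fin n) →* G}
  {lam : Matrix.symplecticGroup (Fin 2) F →* G} (D : Glue hn rho lam)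

/-- The pair of consecutive points. -/
def cons (i : Fin n) (h : i.val + 1 < n) : Fin 2 ↪ Fin n :=
  pairE i ⟨i.val + 1, h⟩ fun e => by have := congrArg Fin.val e; simp at this

theorem eq_one_of_fix {g : Sp[n]} (hF : ∀ j, (g : Mat[n]) *ᵥ stdF j = stdF j)
    (hE : ∀ j, (g : Mat[n]) *ᵥ stdE j = stdE j) : g = 1 :=
  symp_ext_std (fun i => by simp [hE i]) fun i => by simp [hF i]

theorem One_eq_Lam (ι : Fin 2 ↪ Fin n) (j : Fin n) (a : Fin 2) (ha : ι a = j) (u : Sp[1]) (t : Sp[2])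
    (e : emb (oneE j) u = emb ι t) : D.One j u = D.Lam ι t := by
  have : emb (oneE a) u = t := emb_injective ι (by rw [← emb_trans, oneE_trans, ha, e])
  rw [← this, D.Lam_e, ha]

theorem emb_xr (ι : Fin 2 ↪ Fin n) (b : F) :
    emb ι (xr F b) = eT (stdF (ι 0)) (b • stdF (ι 1)) 0 := by
  rw [xr, emb_eT _ (xr_form b), push_stdF, map_smul, push_stdF]

include D in
theorem addBase_of (σ : ∀ j : Fin n, plane (F := F) j →* G) (μ : ∀ i : Fin n, mGrp (F := F) i →* G)
    (hσ : ∀ j u (hu : emb (oneE j) u ∈ plane j), σ j ⟨emb (oneE j) u, hu⟩ = D.One j u)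
    (hμ : ∀ i (h : i.val + 1 < n) t (ht : emb (cons i h) t ∈ mGrp i),
      μ i ⟨emb (cons i h) t, ht⟩ = D.Lam (cons i h) t)
    (E : Lifts n F (G × Sp[n])) (hπ : E.π = MonoidHom.snd _ _)
    (hGS : E.GS = fun j => graphOf (σ j)) (hGM : E.GM = fun i => graphOf (μ i)) :
    ∀ (k : Fin n) (h : k.val + 1 + 1 < n),
    ∃ l ∈ E.gam (k.val + 1), ∃ l' ∈ E.gam (k.val + 1),
      (E.π l : Mat[n]) *ᵥ stdF (Lifts.nx (Nat.lt_of_succ_lt h)) = stdF ⟨k.val + 1 + 1, h⟩ ∧
      (E.π l' : Mat[n]) *ᵥ stdF (Lifts.nx (Nat.lt_of_succ_lt h)) =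
        stdF (Lifts.nx (Nat.lt_of_succ_lt h)) + stdF ⟨k.val + 1 + 1, h⟩ ∧
      E.xBase (Nat.lt_of_succ_lt h) * (l * E.xBase (Nat.lt_of_succ_lt h) * l⁻¹) =
        l' * E.xBase (Nat.lt_of_succ_lt h) * l'⁻¹ := by
  intro k h
  have hk : k.val + 1 < n := Nat.lt_of_succ_lt h
  let b : Fin n := ⟨k.val + 1, hk⟩
  let ι := cons k hk
  let κ := cons b (show b.val + 1 < n from h)
  -- the rank two group at the two upper points lies in `gam`
  let ψ : Sp[2] →* G × Sp[n] := (D.Lam κ).prod (emb κ)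
  have hψ : ∀ t, ψ t ∈ E.gam (k.val + 1) := by
    have htop := eq_top_of_planes ((E.gam (k.val + 1)).comap ψ)
      (fun a t ht => by
        rw [← range_oneE, MonoidHom.mem_range] at ht
        obtain ⟨u, rfl⟩ := ht
        have hκa : k.val + 1 ≤ (κ a).val := by
          rcases (show a = 0 ∨ a = 1 by omega) with rfl | rfl <;> simp [κ, b, cons, pairE_zero, pairE_one]
        refine E.GS_le_gam hκa ?_
        rw [hGS]
        have hm : emb (oneE (κ a)) u ∈ plane (κ a) := by rw [← range_oneE]; exact ⟨u, rfl⟩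
        exact ⟨⟨_, hm⟩, Prod.ext (by
          show σ (κ a) ⟨_, hm⟩ = D.Lam κ (emb (oneE a) u)
          rw [hσ _ u hm, D.Lam_e]) (by
          show emb (oneE (κ a)) u = emb κ (emb (oneE a) u)
          rw [← emb_trans, oneE_trans])⟩)
      (fun a ha => by
        obtain rfl : a = 0 := by omega
        have hm0 : eT (stdF (F := F) (0 : Fin 2)) (stdF ⟨(0 : Fin 2).val + 1, ha⟩) 0 ∈
            mGrp (0 : Fin 2) := Lifts.eT_mem_mGrp ha (Or.inl rfl) 0
        have hm := (mGrp_emb κ (i := b) rfl rfl).2 hm0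
        refine E.GM_le_gam (i := b) le_rfl h ?_
        rw [hGM]
        exact ⟨⟨_, hm⟩, Prod.ext (hμ b h _ hm) rfl⟩)
    exact fun t => htop.ge (Subgroup.mem_top t)
  -- the base element
  have hxb : E.xBase hk = (D.Lam ι (xr F 1), emb ι (xr F 1)) := by
    obtain ⟨h1, h2⟩ := E.xBase_spec hk
    rw [hGM] at h1
    obtain ⟨⟨g, hg⟩, e⟩ := h1
    rw [← e, hπ] at h2
    change g = _ at h2
    rw [← e]
    have eg : g = emb ι (xr F 1) := by
      rw [h2, emb_xr, one_smul]
      rfl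
    subst eg
    exact Prod.ext (hμ k hk _ hg) rfl
  refine ⟨ψ (swp F), hψ _, ψ (shear F), hψ _, ?_, ?_, ?_⟩
  · rw [hπ]
    show ((emb κ (swp F) : Sp[n]) : Mat[n]) *ᵥ stdF (κ 0) = stdF (κ 1)
    rw [emb_stdF, swp, permHom_stdF, swap_apply_left, push_stdF]
  · rw [hπ]
    show ((emb κ (shear F) : Sp[n]) : Mat[n]) *ᵥ stdF (κ 0) = stdF (κ 0) + stdF (κ 1)
    have hb : Cfsg.sympForm 2 F (stdE 0) (-stdF 1) = 0 := by
      rw [form_neg_right, form_stdE_stdF]; simp
    rw [emb_stdF, shear, eT_mulVec hb, form_neg_right, form_stdF_stdF, form_stdF_stdE]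
    simp [push_stdF, map_add]
  rw [hxb]
  have hne : k.val ≠ k.val + 1 + 1 := by omega
  have hinj : Function.Injective ![k, b, (⟨k.val + 1 + 1, h⟩ : Fin n)] := by
    intro i j e
    fin_cases i <;> fin_cases j <;> first | rfl |
      (exfalso; have := congrArg Fin.val e; simp [b] at this; try omega)
  let p : Fin 3 ↪ Fin n := ⟨q hn, fun i j e => by_contra fun hne => q_ne hn hne e⟩
  obtain ⟨σ', hσ'⟩ := exists_perm_ext p ⟨_, hinj⟩
  let κ₀ : Fin 2 ↪ Fin n := pairE (q hn 1) (q hn 2) (q_ne hn (by decide))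
  obtain ⟨c, hc⟩ := exists_perm_ext (base hn) κ₀
  have eκ : κ₀.trans σ'.toEmbedding = κ := Function.Embedding.ext fun x => by
    rcases (show x = 0 ∨ x = 1 by omega) with rfl | rfl
    · exact hσ' 1
    · exact hσ' 2
  refine Prod.ext ?_ ?_
  · have h0 := congrArg (MulAut.conj (rho σ')) (D.chain c (hc 0) (hc 1)).2
    rw [← D.Lam_eq (ι := κ₀) (σ := c) (hc 0) (hc 1), show rho (swap (q hn 1) (q hn 2)) = D.Lam κ₀ (swp F) from (D.Lam_swp κ₀).symm] at h0
    simp only [MulAut.conj_apply] at h0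
    show D.Lam ι (xr F 1) * (D.Lam κ (swp F) * D.Lam ι (xr F 1) * (D.Lam κ (swp F))⁻¹) =
      D.Lam κ (shear F) * D.Lam ι (xr F 1) * (D.Lam κ (shear F))⁻¹
    rw [D.Lam_eq (ι := ι) (σ := σ') (hσ' 0) (hσ' 1), ← eκ, ← D.conj_Lam, ← D.conj_Lam]
    have hs : rho σ' * lam (xr F 1) * (rho σ')⁻¹ *
        (rho σ' * D.Lam κ₀ (swp F) * (rho σ')⁻¹ * (rho σ' * lam (xr F 1) * (rho σ')⁻¹) *
          (rho σ' * D.Lam κ₀ (swp F) * (rho σ')⁻¹)⁻¹) =
        rho σ' * (lam (xr F 1) * (D.Lam κ₀ (swp F) * lam (xr F 1) * (D.Lam κ₀ (swp F))⁻¹)) *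
          (rho σ')⁻¹ := by group
    rw [hs, h0]
    group
  · show emb ι (xr F 1) * (emb κ (swp F) * emb ι (xr F 1) * (emb κ (swp F))⁻¹) =
      emb κ (shear F) * emb ι (xr F 1) * (emb κ (shear F))⁻¹
    have hoff : ∀ a, κ a ≠ k := fun a e => by
      rcases (show a = 0 ∨ a = 1 by omega) with rfl | rfl <;>
        (have := congrArg Fin.val e; simp only [κ, b, cons, pairE_zero, pairE_one] at this; omega)
    have hb : Cfsg.sympForm 2 F (stdE 0) (-stdF 1) = 0 := by
      rw [form_neg_right, form_stdE_stdF]; simp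
    have hm : ((emb κ (shear F) : Sp[n]) : Mat[n]) *ᵥ stdF (κ 0) = stdF (κ 0) + stdF (κ 1) := by
      rw [emb_stdF, shear, eT_mulVec hb, form_neg_right, form_stdF_stdF, form_stdF_stdE]
      simp [push_stdF, map_add]
    rw [emb_xr, one_smul, conj_eT, conj_eT, show ι 0 = k from rfl, show ι 1 = κ 0 from rfl,
      (emb_fix κ _ hoff).1, (emb_fix κ _ hoff).1, hm, emb_stdF, swp, permHom_stdF, swap_apply_left,
      push_stdF, eT_mul (form_stdF_stdF _ _) (form_stdF_stdF _ _), form_stdF_stdF]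
    simp

include D in
theorem exists_lift : ∃ Φ : Sp[n] →* G,
    Φ.comp (permHom n F) = rho ∧ Φ.comp (emb (base hn)) = lam := by
  classical
  -- the maps on the generating subgroups
  have hσ : ∀ j : Fin n, ∃ f : plane (F := F) j →* G,
      ∀ u (hu : emb (oneE j) u ∈ plane j), f ⟨emb (oneE j) u, hu⟩ = D.One j u := fun j => by
    let inv := (MonoidHom.ofInjective (emb_injective (F := F) (oneE j))).symm.toMonoidHom
    refine ⟨((D.One j).comp inv).comp (Subgroup.inclusion (range_oneE (F := F) j).ge), fun u hu => ?_⟩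
    refine congrArg (D.One j) ((MonoidHom.ofInjective (emb_injective (F := F) (oneE j))).injective ?_)
    apply Subtype.ext
    simp [inv]
    rfl
  choose σ hσ' using hσ
  have hμ : ∀ i : Fin n, ∃ f : mGrp (F := F) i →* G, ∀ (h : i.val + 1 < n) t
      (ht : emb (cons i h) t ∈ mGrp i), f ⟨emb (cons i h) t, ht⟩ = D.Lam (cons i h) t := fun i => by
    by_cases h : i.val + 1 < n
    · let inv := (MonoidHom.ofInjective (emb_injective (F := F) (cons i h))).symm.toMonoidHom
      refine ⟨((D.Lam (cons i h)).comp inv).comp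
        (Subgroup.inclusion (mGrp_le_range (cons i h) (i := i) rfl rfl)), fun _ t ht => ?_⟩
      refine congrArg (D.Lam (cons i h))
        ((MonoidHom.ofInjective (emb_injective (F := F) (cons i h))).injective ?_)
      apply Subtype.ext
      simp [inv]
      rfl
    · exact ⟨1, fun h' => absurd h' h⟩
  choose μ hμ' using hμ
  have hgrp : ∀ (i : Fin n) (h : i.val + 1 < n) (g : Sp[n]) (hg : g ∈ mGrp i),
      ∃ t, t ∈ mGrp (0 : Fin 2) ∧ emb (cons i h) t = g := fun i h g hg => by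
    obtain ⟨t, rfl⟩ := mGrp_le_range (cons i h) (i := i) rfl rfl hg
    exact ⟨t, (mGrp_emb (cons i h) rfl rfl).1 hg, rfl⟩
  have hS : ∀ (j : Fin n) (g : Sp[n]) (hg : g ∈ plane j), ∃ u, emb (oneE j) u = g := fun j g hg =>
    (range_oneE (F := F) j).ge hg
  have hσe : ∀ (ι : Fin 2 ↪ Fin n) (j : Fin n) (a : Fin 2), ι a = j → ∀ t
      (ht : emb ι t ∈ plane j), σ j ⟨emb ι t, ht⟩ = D.Lam ι t := by
    intro ι j a ha t ht
    obtain ⟨u, hu⟩ := hS j _ ht
    rw [← D.One_eq_Lam ι j a ha u t hu, ← hσ' j u (by rw [hu]; exact ht)]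
    exact congrArg _ (Subtype.ext hu.symm)
  have hcons : ∀ (i : Fin n) (h : i.val + 1 < n) (x : Fin n),
      (∀ a, cons i h a ≠ x) ↔ x.val ≠ i.val ∧ x.val ≠ i.val + 1 := fun i h x => by
    constructor
    · intro hx
      exact ⟨fun e => hx 0 (Fin.ext e.symm), fun e => hx 1 (Fin.ext e.symm)⟩
    · rintro ⟨h0, h1⟩ a e
      rcases (show a = 0 ∨ a = 1 by omega) with rfl | rfl
      · exact h0 (congrArg Fin.val e).symm
      · exact h1 (congrArg Fin.val e).symm
  obtain ⟨Φ, ⟨hΦS, hΦM⟩, -⟩ := existsUnique_hom_of (F := F) (n := n) (by omega)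
    (S := fun j => plane j) (M := fun i => mGrp i) (fun _ => rfl) (fun _ _ => rfl) σ μ
    (fun j l hjl => by
      refine join_of_le (emb (pairE j l hjl)) (emb_injective _) (D.Lam _) _ _
        (plane_le_range (pairE j l hjl) 0) (plane_le_range (pairE j l hjl) 1)
        (hσe _ j 0 rfl) (hσe _ l 1 rfl))
    (fun i i' hne h h' => by
      have adj : ∀ (i i' : Fin n) (h : i.val + 1 < n) (h' : i'.val + 1 < n),
          i'.val ≠ i.val → i.val ≠ i'.val + 1 → ∀ (g g' : Sp[n]) (hg : g ∈ mGrp i) (hg' : g' ∈ mGrp i'),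
          Commute (μ i ⟨g, hg⟩) (μ i' ⟨g', hg'⟩) := by
        intro i i' h h' hne h1 g g' hg hg'
        obtain ⟨t, ht, rfl⟩ := hgrp i h g hg
        obtain ⟨t', ht', rfl⟩ := hgrp i' h' g' hg'
        rw [hμ', hμ']
        by_cases ha : i'.val = i.val + 1
        · exact D.chain_mgrp (cons i h) (cons i' h') (Fin.ext ha.symm)
            (fun e => by
              have := congrArg Fin.val e
              simp only [cons, pairE_zero, pairE_one] at this
              omega) ht ht'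
        · refine D.Lam_commute _ _ (fun a b => ?_) t t'
          refine ((hcons i h _).2 ⟨?_, ?_⟩) a <;>
            rcases (show b = 0 ∨ b = 1 by omega) with rfl | rfl <;>
            simp only [cons, pairE_zero, pairE_one] <;> omega
      refine join_of_commute _ _ (fun a b => ?_) (fun a b => ?_) (fun g hg hg' => ?_)
      · -- the subgroups fix all the vectors `stdF` and shift `stdE` by such vectors
        exact mgrp_commute a.2 b.2
      · have hv : i'.val ≠ i.val := fun e => hne (Fin.ext e.symm)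
        by_cases h1 : i.val = i'.val + 1
        · exact (adj i' i h' h hv.symm (by omega) b.1 a.1 b.2 a.2).symm
        · exact adj i i' h h' hv h1 a.1 b.1 a.2 b.2
      · obtain ⟨hf, he⟩ := mem_mGrp.1 hg
        obtain ⟨-, he'⟩ := mem_mGrp.1 hg'
        have hv : i'.val ≠ i.val := fun e => hne (Fin.ext e.symm)
        by_cases hc : ∃ j : Fin n, (j.val = i.val ∨ j.val = i.val + 1) ∧ (j.val = i'.val ∨ j.val = i'.val + 1)
        · obtain ⟨j, hj, hj'⟩ := hc
          have hp : g ∈ plane j := mem_plane.2 fun l hl => by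
            have hl' : l.val ≠ j.val := fun e => hl (Fin.ext e)
            by_cases hli : l.val ≠ i.val ∧ l.val ≠ i.val + 1
            · exact ⟨hf l, he l hli.1 hli.2⟩
            · exact ⟨hf l, he' l (by omega) (by omega)⟩
          obtain ⟨t, ht, rfl⟩ := hgrp i h g hg
          rw [hμ']
          obtain ⟨t', ht', et⟩ := hgrp i' h' _ hg'
          have : μ i' ⟨_, hg'⟩ = D.Lam (cons i' h') t' := by
            rw [← hμ' i' h' t' (by rw [et]; exact hg')]
            exact congrArg _ (Subtype.ext et.symm)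
          rw [this]
          obtain ⟨u, hu⟩ := hS j _ hp
          obtain ⟨a, ha⟩ : ∃ a, cons i h a = j := by
            rcases hj with e | e
            exacts [⟨0, Fin.ext e.symm⟩, ⟨1, Fin.ext e.symm⟩]
          obtain ⟨a', ha'⟩ : ∃ a, cons i' h' a = j := by
            rcases hj' with e | e
            exacts [⟨0, Fin.ext e.symm⟩, ⟨1, Fin.ext e.symm⟩]
          rw [← D.One_eq_Lam _ j a ha u t hu, D.One_eq_Lam _ j a' ha' u t' (hu.trans et.symm)]
        · push Not at hc
          have g1 : g = 1 := eq_one_of_fix hf fun l => by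
            by_cases hl : l.val ≠ i.val ∧ l.val ≠ i.val + 1
            · exact he l hl.1 hl.2
            · exact he' l (hc l (by omega)).1 (hc l (by omega)).2
          subst g1
          exact (map_one (μ i)).trans (map_one (μ i')).symm)
    (fun i j h => by
      by_cases hj : ∃ a, cons i h a = j
      · obtain ⟨a, ha⟩ := hj
        refine join_of_le (emb (cons i h)) (emb_injective _) (D.Lam _) _ _
          (mGrp_le_range (cons i h) (i := i) rfl rfl) (ha ▸ plane_le_range (cons i h) a)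
          (fun t ht => hμ' i h t ht) (hσe _ j a ha)
      · push Not at hj
        refine join_of_commute _ _ (fun g g' => ?_) (fun g g' => ?_) (fun g hg hg' => ?_)
        · obtain ⟨t, -, e⟩ := hgrp i h g.1 g.2
          obtain ⟨u, e'⟩ := hS j g'.1 g'.2
          rw [← e, ← e']
          exact emb_commute _ _ (fun a _ => hj a) t u
        · obtain ⟨g, hg⟩ := g
          obtain ⟨g', hg'⟩ := g'
          obtain ⟨t, -, rfl⟩ := hgrp i h g hg
          obtain ⟨u, rfl⟩ := hS j g' hg'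
          rw [hμ', hσ']
          exact (D.One_commute_Lam _ _ hj u t).symm
        · have g1 : g = 1 := eq_one_of_fix (mem_mGrp.1 hg).1 fun l => by
            by_cases hl : l = j
            · subst hl
              exact (mem_mGrp.1 hg).2 l ((hcons i h l).1 hj).1 ((hcons i h l).1 hj).2
            · exact (mem_plane.1 hg' l hl).2
          subst g1
          exact (map_one (μ i)).trans (map_one (σ j)).symm)
    (fun E hπ hGS hGM => Or.inr (addBase_of D σ μ hσ' hμ' E hπ hGS hGM))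
  -- identify the restrictions
  have hι : ∀ (i : Fin n) (h : i.val + 1 < n), Φ.comp (emb (cons i h)) = D.Lam (cons i h) := by
    intro i h
    refine MonoidHom.eq_of_eqOn_top fun t _ => ?_
    have htop := eq_top_of_planes ((Φ.comp (emb (cons i h))).eqLocus (D.Lam (cons i h)))
      (fun a t ht => by
        rw [← range_oneE, MonoidHom.mem_range] at ht
        obtain ⟨u, rfl⟩ := ht
        show Φ (emb (cons i h) (emb (oneE a) u)) = _
        have hm : emb (oneE (cons i h a)) u ∈ plane (cons i h a) := by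
          rw [← range_oneE]; exact ⟨u, rfl⟩
        rw [D.Lam_e, ← emb_trans, oneE_trans, hΦS _ _ hm, hσ' _ u hm])
      (fun a ha => by
        obtain rfl : a = 0 := by omega
        have hm0 : eT (stdF (F := F) (0 : Fin 2)) (stdF ⟨(0 : Fin 2).val + 1, ha⟩) 0 ∈
            mGrp (0 : Fin 2) := Lifts.eT_mem_mGrp ha (Or.inl rfl) 0
        have hm := (mGrp_emb (cons i h) (i := i) rfl rfl).2 hm0
        show Φ _ = _
        rw [hΦM i h _ hm, hμ' i h _ hm])
    exact htop.ge (Subgroup.mem_top t)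
  refine ⟨Φ, ?_, ?_⟩
  · obtain ⟨m, rfl⟩ : ∃ m, n = m + 1 := ⟨n - 1, by omega⟩
    refine MonoidHom.eq_of_eqOn_denseM (Perm.mclosure_swap_castSucc_succ m) ?_
    rintro _ ⟨i, rfl⟩
    have h := DFunLike.congr_fun (hι i.castSucc (by simp)) (swp F)
    rw [D.Lam_swp] at h
    have e : cons i.castSucc (by simp : (i.castSucc).val + 1 < m + 1) 1 = i.succ := Fin.ext (by simp [cons, pairE])
    rw [e] at h
    refine Eq.trans ?_ h
    show Φ (permHom _ F _) = Φ (emb _ (swp F))
    rw [swp_emb, e]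
    rfl
  · have hb : base hn = cons (q hn 0) (by simp [q]; omega) :=
      Function.Embedding.ext fun a => by
        rcases (show a = 0 ∨ a = 1 by omega) with rfl | rfl <;> rfl
    rw [hb, hι _ _, ← hb]
    exact MonoidHom.ext D.Lam_base

end Glue

end CfsgLib.SpPres77
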